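import Cfsg.Agent.H847.Ux.Norm
import Cfsg.Agent.H440.Bs.Glue
import Cfsg.Agent.H42.Bs.Inst

/-!
# S5716, unbounded rank, UG1 (general position), part 1 (helper847)

Counting lemmas; the pointwise stabiliser `fixD G D` of a nondegenerate subspace; its orbits on `D^⊥`.
-/

set_option autoImplicit false
set_option linter.unusedSectionVars false

namespace Cfsg.Agent.H847.Ux

open Module QuadraticMap Cfsg.Agent.LieClassical.OrthCore Cfsg.Agent.H847.Bs
open Cfsg.Agent.H440.Bs (perp mem_perp mem_perp' perp_disjoint dec_perp)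

/-! ### counting -/

/-- double counting, upper bound -/
theorem count_le {α β : Type*} [Finite α] [Finite β] (P : β → Prop) (S : α → Prop) (R : α → β → Prop) (X c : ℕ)
    (hw : ∀ b, P b → ∃ a, S a ∧ R a b) (h : ∀ a, S a → Nat.card {b // R a b} * X ≤ c) :
    Nat.card {b // P b} * X ≤ Nat.card {a // S a} * c := by
  classical
  have := Fintype.ofFinite {a // S a}
  choose f hfS hfR using hw
  have h1 : Nat.card {b // P b} ≤ Nat.card (Σ a : {a // S a}, {b // R a.1 b}) := by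
    refine Nat.card_le_card_of_injective (fun b => ⟨⟨f b.1 b.2, hfS b.1 b.2⟩, ⟨b.1, hfR b.1 b.2⟩⟩) ?_
    intro b b' hbb
    have h2 := congrArg (fun s : (Σ a : {a // S a}, {b // R a.1 b}) => (s.2 : β)) hbb
    exact Subtype.ext h2
  rw [Nat.card_sigma] at h1
  refine (Nat.mul_le_mul_right X h1).trans ?_
  rw [Finset.sum_mul]
  refine (Finset.sum_le_card_nsmul _ _ c fun (a : {a // S a}) _ => h a.1 a.2).trans ?_
  rw [Finset.card_univ, Nat.card_eq_fintype_card (α := {a // S a}), smul_eq_mul]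

/-- double counting, lower bound -/
theorem le_count {α β : Type*} [Finite α] [Finite β] (P : β → Prop) (R : α → β → Prop) (m : ℕ)
    (h : ∀ b, P b → m ≤ Nat.card {a // R a b}) :
    m * Nat.card {b // P b} ≤ Nat.card {p : α × β // R p.1 p.2} := by
  classical
  have := Fintype.ofFinite {b // P b}
  have h1 : Nat.card (Σ b : {b // P b}, {a // R a b.1}) ≤ Nat.card {p : α × β // R p.1 p.2} := by
    refine Nat.card_le_card_of_injective (fun s => ⟨(s.2.1, s.1.1), s.2.2⟩) ?_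
    rintro ⟨⟨b, hb⟩, ⟨a, ha⟩⟩ ⟨⟨b', hb'⟩, ⟨a', ha'⟩⟩ hs
    have h2 := congrArg Subtype.val hs
    have h3 : a = a' := congrArg Prod.fst h2
    have h4 : b = b' := congrArg Prod.snd h2
    subst h3 h4
    rfl
  refine le_trans ?_ h1
  rw [Nat.card_sigma]
  refine le_trans ?_ (Finset.card_nsmul_le_sum _ _ m fun (b : {b // P b}) _ => h b.1 b.2)
  rw [Finset.card_univ, Nat.card_eq_fintype_card (α := {b // P b}), smul_eq_mul, mul_comm]

/-- union bound -/
theorem card_or_le {α : Type*} [Finite α] (P P' P'' : α → Prop) (h : ∀ a, P a → P' a ∨ P'' a) :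
    Nat.card {a // P a} ≤ Nat.card {a // P' a} + Nat.card {a // P'' a} := by
  classical
  rw [← Nat.card_sum]
  refine Nat.card_le_card_of_injective
    (fun a => if h' : P' a.1 then Sum.inl ⟨a.1, h'⟩ else Sum.inr ⟨a.1, (h a.1 a.2).resolve_left h'⟩) ?_
  rintro ⟨a, ha⟩ ⟨b, hb⟩ hab
  by_cases h1 : P' a <;> by_cases h2 : P' b
  · simp only [h1, h2, dif_pos] at hab
    exact Subtype.ext (congrArg (fun z : {a // P' a} ⊕ {a // P'' a} => Sum.elim Subtype.val Subtype.val z) hab)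
  · simp only [h1, h2, dif_pos] at hab
    exact absurd hab (by simp)
  · simp only [h1, h2, dif_pos] at hab
    exact absurd hab (by simp)
  · simp only [h1, h2, dif_neg, not_false_eq_true] at hab
    exact Subtype.ext (congrArg (fun z : {a // P' a} ⊕ {a // P'' a} => Sum.elim Subtype.val Subtype.val z) hab)

theorem card_mono' {α : Type*} [Finite α] {P P' : α → Prop} (h : ∀ a, P a → P' a) :
    Nat.card {a // P a} ≤ Nat.card {a // P' a} :=
  Nat.card_mono (Set.toFinite _) fun a ha => h a ha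

/-- averaging over the cosets of a subgroup -/
theorem avg {Γ : Type*} [Group Γ] [Finite Γ] (G G₀ : Subgroup Γ) (hle : G₀ ≤ G) (P : Γ → Prop) (t c : ℕ)
    (h : ∀ g ∈ G, Nat.card {k // k ∈ G₀ ∧ P (g * k)} * t ≤ c * Nat.card G₀) :
    Nat.card {g // g ∈ G ∧ P g} * t ≤ c * Nat.card G := by
  have h0 : 0 < Nat.card G₀ := Nat.card_pos
  have h1 : Nat.card G₀ * Nat.card {g // g ∈ G ∧ P g} ≤
      Nat.card {p : Γ × Γ // p.1 ∈ G ∧ p.2 ∈ G₀ ∧ P (p.1 * p.2)} := by
    rw [← Nat.card_prod]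
    refine Nat.card_le_card_of_injective (fun p => ⟨(p.2.1 * (p.1.1)⁻¹, p.1.1),
      G.mul_mem p.2.2.1 (G.inv_mem (hle p.1.2)), p.1.2, by
        show P (p.2.1 * (p.1.1)⁻¹ * p.1.1)
        rw [inv_mul_cancel_right]; exact p.2.2.2⟩) ?_
    rintro ⟨⟨a, ha⟩, ⟨b, hb⟩⟩ ⟨⟨a', ha'⟩, ⟨b', hb'⟩⟩ hs
    have h2 := congrArg Subtype.val hs
    have h3 : a = a' := congrArg Prod.snd h2
    have h4 : b * a⁻¹ = b' * a'⁻¹ := congrArg Prod.fst h2
    subst h3
    have h5 : b = b' := mul_right_cancel h4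
    subst h5
    rfl
  have h2 : Nat.card {p : Γ × Γ // p.1 ∈ G ∧ p.2 ∈ G₀ ∧ P (p.1 * p.2)} * t ≤
      Nat.card {g : Γ // g ∈ G} * (c * Nat.card G₀) := by
    refine count_le _ (fun g : Γ => g ∈ G) (fun g p => p.1 = g ∧ p.2 ∈ G₀ ∧ P (g * p.2)) t (c * Nat.card G₀)
      (fun p hp => ⟨p.1, hp.1, rfl, hp.2⟩) ?_
    intro g hg
    refine (Nat.mul_le_mul_right t ?_).trans (h g hg)
    refine Nat.card_le_card_of_injective (fun p => ⟨p.1.2, p.2.2⟩) ?_
    rintro ⟨⟨a, b⟩, h1, h2⟩ ⟨⟨a', b'⟩, h1', h2'⟩ hs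
    have h3 : b = b' := congrArg Subtype.val hs
    have h4 : a = g := h1
    have h5 : a' = g := h1'
    subst h3 h4 h5
    rfl
  refine Nat.le_of_mul_le_mul_left ?_ h0
  calc Nat.card G₀ * (Nat.card {g // g ∈ G ∧ P g} * t) = Nat.card G₀ * Nat.card {g // g ∈ G ∧ P g} * t := by ring
    _ ≤ _ := Nat.mul_le_mul_right t h1
    _ ≤ _ := h2
    _ = _ := by
      show Nat.card G * (c * Nat.card G₀) = _
      ring

variable {F V : Type*} [Field F] [AddCommGroup V] [Module F V]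

/-! ### fibres and orbits -/

/-- fibres times orbit is at most the order of the group -/
theorem fib_mul {Γ X : Type*} [Group Γ] [Finite Γ] [Finite X] (G : Subgroup Γ) (f : Γ → X)
    (hf : ∀ a b c : Γ, f b = f c → f (a * b) = f (a * c)) (y : X) :
    Nat.card {g // g ∈ G ∧ f g = y} * Nat.card {p : X // ∃ g ∈ G, p = f g} ≤ Nat.card G := by
  classical
  by_cases h0 : IsEmpty {g // g ∈ G ∧ f g = y}
  · rw [Nat.card_of_isEmpty, zero_mul]; exact Nat.zero_le _
  rw [not_isEmpty_iff] at h0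
  obtain ⟨⟨g₀, hg₀, hy⟩⟩ := h0
  rw [← Nat.card_prod]
  choose c hcG hc using fun p : {p : X // ∃ g ∈ G, p = f g} => p.2
  refine Nat.card_le_card_of_injective (fun s => (⟨c s.2 * (g₀⁻¹ * s.1.1),
    G.mul_mem (hcG _) (G.mul_mem (G.inv_mem hg₀) s.1.2.1)⟩ : G)) ?_
  rintro ⟨⟨a, ha, ha'⟩, p⟩ ⟨⟨b, hb, hb'⟩, p'⟩ hs
  have h2 : c p * (g₀⁻¹ * a) = c p' * (g₀⁻¹ * b) := congrArg Subtype.val hs
  have h3 : ∀ a : Γ, f a = y → ∀ p, f (c p * (g₀⁻¹ * a)) = p := by
    intro a ha p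
    have h4 : f (g₀⁻¹ * a) = f (g₀⁻¹ * g₀) := hf _ _ _ (by rw [ha, hy])
    rw [hf _ _ _ h4, inv_mul_cancel, mul_one]
    exact (hc p).symm
  have h5 : (p : X) = p' := by rw [← h3 a ha' p, h2, h3 b hb' p']
  have h6 : p = p' := Subtype.ext h5
  subst h6
  have h7 : a = b := mul_left_cancel (mul_left_cancel h2)
  subst h7
  rfl

/-- the pointwise stabiliser of `D` in `G` -/
def fixD (G : Subgroup (V ≃ₗ[F] V)) (D : Submodule F V) : Subgroup (V ≃ₗ[F] V) where
  carrier := {g | g ∈ G ∧ ∀ v ∈ D, g v = v}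
  mul_mem' := by
    rintro a b ⟨ha, ha'⟩ ⟨hb, hb'⟩
    exact ⟨G.mul_mem ha hb, fun v hv => by rw [LinearEquiv.mul_apply, hb' v hv, ha' v hv]⟩
  one_mem' := ⟨G.one_mem, fun v _ => rfl⟩
  inv_mem' := by
    rintro a ⟨ha, ha'⟩
    refine ⟨G.inv_mem ha, fun v hv => ?_⟩
    have h1 : a⁻¹ (a v) = v := a.symm_apply_apply v
    rwa [ha' v hv] at h1

theorem mem_fixD {G : Subgroup (V ≃ₗ[F] V)} {D : Submodule F V} {g : V ≃ₗ[F] V} :
    g ∈ fixD G D ↔ g ∈ G ∧ ∀ v ∈ D, g v = v := Iff.rfl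

theorem Kl.iso {Φ : Frm F V} {G : Subgroup (V ≃ₗ[F] V)} {N : ℕ} (h : Kl Φ G N) {g : V ≃ₗ[F] V} (hg : g ∈ G) :
    (∀ x y, Φ.B (g x) (g y) = Φ.B x y) ∧ ∀ x, Φ.q (g x) = Φ.q x := by
  rcases h with ⟨-, rfl, -⟩ | ⟨r, -, rfl, -⟩ | ⟨Q, -, rfl, rfl, -⟩
  · exact hg
  · exact hg.1
  · have h1 : g ∈ (frmQ Q).Iso := by
      rw [Cfsg.Agent.H42.Bs.Iso_frmQ]
      exact E_le_O hg
    exact h1

/-- restriction to a nondegenerate subspace -/
theorem Kl.on [Finite F] {Φ : Frm F V} {G : Subgroup (V ≃ₗ[F] V)} {N : ℕ} (h : Kl Φ G N) {D : Submodule F V}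
    (hD : Φ.NdOn D) : ∃ K, Kl (Φ.on D) K N := by
  rcases h with ⟨h, rfl, hN⟩ | ⟨r, h, rfl, hN⟩ | ⟨Q, h, rfl, rfl, hN⟩
  · exact ⟨_, Or.inl ⟨Cfsg.Agent.H42.Bs.isSp_on h hD, rfl, hN⟩⟩
  · exact ⟨_, Or.inr (Or.inl ⟨r, Cfsg.Agent.H42.Bs.isHerm_on h hD, rfl, hN⟩)⟩
  · refine ⟨_, Or.inr (Or.inr ⟨Q.comp D.subtype, ?_, Cfsg.Agent.H42.Bs.frmQ_on Q D, rfl, hN⟩)⟩
    exact Cfsg.Agent.H42.Bs.nondeg_comp hD

/-- **Witt's theorem relative to a nondegenerate subspace** -/
theorem witt_rel [Finite F] [Module.Finite F V] {Φ : Frm F V} {G : Subgroup (V ≃ₗ[F] V)} {N : ℕ} (h : Kl Φ G N)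
    {D : Submodule F V} (hD : Φ.NdOn D) {m : ℕ} (hn : 2 * (finrank F D + m) + 3 ≤ finrank F V)
    (h5 : 5 ≤ finrank F V) {c c' : Fin m → V} (hc : ∀ i, c i ∈ perp Φ D) (hc' : ∀ i, c' i ∈ perp Φ D)
    (hcl : LinearIndependent F c) (hcl' : LinearIndependent F c') (h1 : ∀ i j, Φ.B (c i) (c j) = Φ.B (c' i) (c' j))
    (h2 : ∀ i, Φ.q (c i) = Φ.q (c' i)) : ∃ k ∈ fixD G D, ∀ i, k (c i) = c' i := by
  have : Finite V := Module.finite_of_finite F
  let b := Module.finBasis F D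
  have hb : LinearIndependent F (fun i => (b i : V)) := b.linearIndependent.map' D.subtype D.ker_subtype
  have hs : ∀ c : Fin m → V, (∀ i, c i ∈ perp Φ D) →
      Disjoint (Submodule.span F (Set.range fun i => (b i : V))) (Submodule.span F (Set.range c)) := by
    intro c hc
    refine (perp_disjoint Φ hD).mono ?_ ?_
    · rw [Submodule.span_le]
      rintro _ ⟨i, rfl⟩
      exact (b i).2
    · rw [Submodule.span_le]
      rintro _ ⟨i, rfl⟩
      exact hc i
  have e : Fin (finrank F D + m) ≃ Fin (finrank F D) ⊕ Fin m := finSumFinEquiv.symm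
  obtain ⟨k, hk, hku⟩ := witt h (k := finrank F D + m) hn h5
    (u := Sum.elim (fun i => (b i : V)) c ∘ e) (u' := Sum.elim (fun i => (b i : V)) c' ∘ e)
    ((LinearIndependent.sum_type hb hcl (hs c hc)).comp _ e.injective)
    ((LinearIndependent.sum_type hb hcl' (hs c' hc')).comp _ e.injective)
    (by
      intro i j
      rw [Function.comp_apply, Function.comp_apply, Function.comp_apply, Function.comp_apply]
      rcases e i with i | i <;> rcases e j with j | j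
      · rfl
      · rw [Sum.elim_inl, Sum.elim_inr, Sum.elim_inl, Sum.elim_inr, (mem_perp' Φ).1 (hc j) _ (b i).2,
          (mem_perp' Φ).1 (hc' j) _ (b i).2]
      · rw [Sum.elim_inl, Sum.elim_inr, Sum.elim_inl, Sum.elim_inr, (mem_perp Φ).1 (hc i) _ (b j).2,
          (mem_perp Φ).1 (hc' i) _ (b j).2]
      · exact h1 i j)
    (by
      intro i
      rw [Function.comp_apply, Function.comp_apply]
      rcases e i with i | i
      · rfl
      · exact h2 i)
  refine ⟨k, ⟨hk, ?_⟩, ?_⟩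
  · have h3 : ∀ i, k (b i : V) = b i := by
      intro i
      have := hku (e.symm (Sum.inl i))
      rwa [Function.comp_apply, Function.comp_apply, Equiv.apply_symm_apply] at this
    intro v hv
    have h4 : (⟨v, hv⟩ : D) ∈ Submodule.span F (Set.range b) := by rw [b.span_eq]; trivial
    have h5 : Submodule.span F (Set.range b) ≤ (LinearMap.eqLocus (k : V →ₗ[F] V) LinearMap.id).comap D.subtype := by
      rw [Submodule.span_le]
      rintro _ ⟨i, rfl⟩
      exact h3 i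
    exact h5 h4
  · intro i
    have := hku (e.symm (Sum.inr i))
    rwa [Function.comp_apply, Function.comp_apply, Equiv.apply_symm_apply] at this

/-- orbits of vectors of `D^⊥` -/
theorem orb1 [Finite F] [Module.Finite F V] {Φ : Frm F V} {G : Subgroup (V ≃ₗ[F] V)} {N : ℕ} (h : Kl Φ G N)
    {D : Submodule F V} (hD : Φ.NdOn D) (hn : 2 * finrank F D + 10 ≤ finrank F V) {w : V} (hw : w ∈ perp Φ D)
    (hw0 : w ≠ 0) : Nat.card (perp Φ D) ≤ 2 * N * Nat.card {p : V // ∃ k ∈ fixD G D, p = k w} := by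
  have : Finite V := Module.finite_of_finite F
  have hf := Cfsg.Agent.H440.Bs.finrank_perp Φ h.good.nd D
  have hP : Φ.NdOn (perp Φ D) := (Cfsg.Agent.H440.Bs.Dec.ndOn' (dec_perp Φ h.good.nd hD)) h.good.nd
  obtain ⟨K, hK⟩ := h.on hP
  refine (n4' hK (by omega) (w := ⟨w, hw⟩) (fun h0 => hw0 (congrArg Subtype.val h0))).trans
    (Nat.mul_le_mul_left _ ?_)
  refine Nat.card_le_card_of_injective (fun p => ⟨(p.1 : V), ?_⟩) ?_
  · obtain ⟨p, g, hg, rfl⟩ := p
    have hi := hK.iso hg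
    have hne : ((g ⟨w, hw⟩ : perp Φ D) : V) ≠ 0 := by
      intro h0
      have h1 : g ⟨w, hw⟩ = 0 := Subtype.ext h0
      have h2 : (⟨w, hw⟩ : perp Φ D) = 0 := (LinearEquiv.map_eq_zero_iff g).1 h1
      exact hw0 (congrArg Subtype.val h2)
    obtain ⟨k, hk, hkc⟩ := witt_rel h hD (m := 1) (by omega) (by omega) (c := ![w])
      (c' := ![((g ⟨w, hw⟩ : perp Φ D) : V)])
      (by intro i; fin_cases i; exact hw) (by intro i; fin_cases i; exact (g ⟨w, hw⟩).2)
      (LinearIndependent.of_subsingleton (v := ![w]) 0 hw0)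
      (LinearIndependent.of_subsingleton (v := ![((g ⟨w, hw⟩ : perp Φ D) : V)]) 0 hne)
      (by intro i j; fin_cases i; fin_cases j; exact (hi.1 ⟨w, hw⟩ ⟨w, hw⟩).symm)
      (by intro i; fin_cases i; exact (hi.2 ⟨w, hw⟩).symm)
    exact ⟨k, hk, (hkc 0).symm⟩
  · intro p p' hpp
    have h1 := congrArg Subtype.val hpp
    exact Subtype.ext (Subtype.ext h1)

/-- orbits of pairs of vectors of `D^⊥` -/
theorem orb2 [Finite F] [Module.Finite F V] {Φ : Frm F V} {G : Subgroup (V ≃ₗ[F] V)} {N : ℕ} (h : Kl Φ G N)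
    {D : Submodule F V} (hD : Φ.NdOn D) (hn : 2 * finrank F D + 10 ≤ finrank F V) {w v : V} (hw : w ∈ perp Φ D)
    (hv : v ∈ perp Φ D) (hw0 : w ≠ 0) (hvw : v ∉ Submodule.span F {w}) :
    Nat.card (perp Φ D) ^ 2 ≤
      4 * N ^ 2 * Nat.card F * Nat.card {p : V × V // ∃ k ∈ fixD G D, p = (k w, k v)} := by
  have : Finite V := Module.finite_of_finite F
  have hf := Cfsg.Agent.H440.Bs.finrank_perp Φ h.good.nd D
  have hP : Φ.NdOn (perp Φ D) := (Cfsg.Agent.H440.Bs.Dec.ndOn' (dec_perp Φ h.good.nd hD)) h.good.nd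
  obtain ⟨K, hK⟩ := h.on hP
  have hwv : LinearIndependent F ![(⟨w, hw⟩ : perp Φ D), ⟨v, hv⟩] := by
    rw [LinearIndependent.pair_iff' (fun h0 => hw0 (congrArg Subtype.val h0))]
    intro a ha
    exact hvw (Submodule.mem_span_singleton.2 ⟨a, congrArg Subtype.val ha⟩)
  refine (n4_nat hK (by omega) (w := ⟨w, hw⟩) (v := ⟨v, hv⟩) (fun h0 => hw0 (congrArg Subtype.val h0)) ?_).trans
    (Nat.mul_le_mul_left _ ?_)
  · intro h0
    obtain ⟨a, ha⟩ := Submodule.mem_span_singleton.1 h0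
    exact hvw (Submodule.mem_span_singleton.2 ⟨a, congrArg Subtype.val ha⟩)
  refine Nat.card_le_card_of_injective (fun p => ⟨((p.1.1 : V), (p.1.2 : V)), ?_⟩) ?_
  · obtain ⟨p, g, hg, rfl⟩ := p
    have hi := hK.iso hg
    have e1 : ![w, v] = fun i => ((![(⟨w, hw⟩ : perp Φ D), ⟨v, hv⟩] i : perp Φ D) : V) := by
      funext i; fin_cases i <;> rfl
    obtain ⟨k, hk, hkc⟩ := witt_rel h hD (m := 2) (by omega) (by omega)
      (c := fun i => ((![(⟨w, hw⟩ : perp Φ D), ⟨v, hv⟩] i : perp Φ D) : V))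
      (c' := fun i => ((g (![(⟨w, hw⟩ : perp Φ D), ⟨v, hv⟩] i) : perp Φ D) : V))
      (fun i => Subtype.property _) (fun i => Subtype.property _)
      (hwv.map' (perp Φ D).subtype (Submodule.ker_subtype _))
      ((hwv.map' (g : perp Φ D →ₗ[F] perp Φ D) (LinearEquiv.ker g)).map' (perp Φ D).subtype
        (Submodule.ker_subtype _))
      (fun i j => (hi.1 _ _).symm) (fun i => (hi.2 _).symm)
    exact ⟨k, hk, Prod.ext (hkc 0).symm (hkc 1).symm⟩
  · intro p p' hpp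
    have h1 := congrArg Subtype.val hpp
    exact Subtype.ext (Prod.ext (Subtype.ext (congrArg Prod.fst h1)) (Subtype.ext (congrArg Prod.snd h1)))

theorem finite_lin [Finite V] : Finite (V ≃ₗ[F] V) :=
  Finite.of_injective (fun g : V ≃ₗ[F] V => (g : V → V)) DFunLike.coe_injective

/-- fibres, one vector -/
theorem fib1 [Finite F] [Module.Finite F V] {Φ : Frm F V} {G : Subgroup (V ≃ₗ[F] V)} {N : ℕ} (h : Kl Φ G N)
    {D : Submodule F V} (hD : Φ.NdOn D) (hn : 2 * finrank F D + 10 ≤ finrank F V) {w : V} (hw : w ∈ perp Φ D)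
    (hw0 : w ≠ 0) (w₁ : V) :
    Nat.card {k // k ∈ fixD G D ∧ k w = w₁} * Nat.card (perp Φ D) ≤ 2 * N * Nat.card (fixD G D) := by
  have : Finite V := Module.finite_of_finite F
  have : Finite (V ≃ₗ[F] V) := finite_lin
  have h1 := orb1 h hD hn hw hw0
  have h2 := fib_mul (fixD G D) (fun k : V ≃ₗ[F] V => k w)
    (fun a b c hbc => by
      show (a * b) w = (a * c) w
      rw [LinearEquiv.mul_apply, LinearEquiv.mul_apply]; exact congrArg a hbc) w₁
  calc _ ≤ Nat.card {k // k ∈ fixD G D ∧ k w = w₁} * (2 * N * Nat.card {p : V // ∃ k ∈ fixD G D, p = k w}) :=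
        Nat.mul_le_mul_left _ h1
    _ = 2 * N * (Nat.card {k // k ∈ fixD G D ∧ k w = w₁} * Nat.card {p : V // ∃ k ∈ fixD G D, p = k w}) := by ring
    _ ≤ _ := Nat.mul_le_mul_left _ h2

/-- fibres, two vectors -/
theorem fib2 [Finite F] [Module.Finite F V] {Φ : Frm F V} {G : Subgroup (V ≃ₗ[F] V)} {N : ℕ} (h : Kl Φ G N)
    {D : Submodule F V} (hD : Φ.NdOn D) (hn : 2 * finrank F D + 10 ≤ finrank F V) {w v : V} (hw : w ∈ perp Φ D)
    (hv : v ∈ perp Φ D) (hw0 : w ≠ 0) (hvw : v ∉ Submodule.span F {w}) (w₁ v₁ : V) :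
    Nat.card {k // k ∈ fixD G D ∧ k w = w₁ ∧ k v = v₁} * Nat.card (perp Φ D) ^ 2 ≤
      4 * N ^ 2 * Nat.card F * Nat.card (fixD G D) := by
  have : Finite V := Module.finite_of_finite F
  have : Finite (V ≃ₗ[F] V) := finite_lin
  have h1 := orb2 h hD hn hw hv hw0 hvw
  have h2 := fib_mul (fixD G D) (fun k : V ≃ₗ[F] V => (k w, k v))
    (fun a b c hbc => by
      show ((a * b) w, (a * b) v) = ((a * c) w, (a * c) v)
      rw [LinearEquiv.mul_apply, LinearEquiv.mul_apply, LinearEquiv.mul_apply, LinearEquiv.mul_apply]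
      rw [Prod.mk.injEq] at hbc
      exact Prod.ext (congrArg a hbc.1) (congrArg a hbc.2)) (w₁, v₁)
  have h3 : Nat.card {k // k ∈ fixD G D ∧ k w = w₁ ∧ k v = v₁} =
      Nat.card {k // k ∈ fixD G D ∧ (k w, k v) = (w₁, v₁)} := by
    refine Nat.card_congr (Equiv.subtypeEquivRight fun k => ?_)
    rw [Prod.mk.injEq]
  rw [h3]
  calc _ ≤ Nat.card {k // k ∈ fixD G D ∧ (k w, k v) = (w₁, v₁)} *
        (4 * N ^ 2 * Nat.card F * Nat.card {p : V × V // ∃ k ∈ fixD G D, p = (k w, k v)}) :=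
        Nat.mul_le_mul_left _ h1
    _ = 4 * N ^ 2 * Nat.card F * (Nat.card {k // k ∈ fixD G D ∧ (k w, k v) = (w₁, v₁)} *
        Nat.card {p : V × V // ∃ k ∈ fixD G D, p = (k w, k v)}) := by ring
    _ ≤ _ := Nat.mul_le_mul_left _ h2

end Cfsg.Agent.H847.Ux
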