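import Cfsg.Agent.H847.Ux.Gp1

/-!
# S5716, unbounded rank, UG1 (general position), part 2 (helper847)

Counts with norms; singular eigenvectors; the conditions `GPF.e`, `GPF.a`, `GPF.a'`.
-/

set_option autoImplicit false
set_option linter.unusedSectionVars false

namespace Cfsg.Agent.H847.Ux

open Module QuadraticMap Cfsg.Agent.LieClassical.OrthCore Cfsg.Agent.H847.Bs
open Cfsg.Agent.H440.Bs (perp mem_perp mem_perp' perp_disjoint dec_perp)

variable {F V : Type*} [Field F] [AddCommGroup V] [Module F V]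

theorem card_sub [Finite F] [Module.Finite F V] (W : Submodule F V) : Nat.card W = Nat.card F ^ finrank F W :=
  Module.natCard_eq_pow_finrank (K := F) (V := W)

theorem card_V [Finite F] [Module.Finite F V] : Nat.card V = Nat.card F ^ finrank F V :=
  Module.natCard_eq_pow_finrank (K := F) (V := V)

/-! ### nonsingular vectors in large subspaces -/

theorem herm_orth [Finite F] {Φ : Frm F V} {r : ℕ} (h : IsHerm r Φ) (R : Submodule F V) (hR : ∀ x ∈ R, Φ.B x x = 0) :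
    ∀ x ∈ R, ∀ y ∈ R, Φ.B x y = 0 := by
  have := Fintype.ofFinite F
  intro x hx y hy
  by_contra h0
  have hF : Fintype.card F = r ^ 2 := by rw [← Nat.card_eq_fintype_card]; exact h.card
  have h2 : 2 ≤ r := Cfsg.Agent.LieClassical.HermBasic.two_le hF
  have h1 : ∀ z : F, z + z ^ r = 0 := by
    intro z
    have e := hR _ (R.add_mem (R.smul_mem (z / Φ.B x y) hx) hy)
    have e1 : Φ.B y x = Φ.B x y ^ r := h.symm x y
    rw [Φ.add_left, Φ.add_right, Φ.add_right, Φ.smul_left, Φ.smul_left, Φ.smul_right, Φ.smul_right, hR x hx, hR y hy,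
      h.s, e1, ← mul_pow, div_mul_cancel₀ _ h0] at e
    linear_combination e
  have h3 := card_trace_zero hF
  rw [Nat.card_congr (Equiv.subtypeUnivEquiv h1), h.card] at h3
  nlinarith

theorem quad_orth {Q : QuadraticForm F V} (R : Submodule F V) (hR : ∀ x ∈ R, Q x = 0) :
    ∀ x ∈ R, ∀ y ∈ R, polar Q x y = 0 := by
  intro x hx y hy
  rw [polar, hR x hx, hR y hy, hR _ (R.add_mem hx hy)]
  ring

/-- a large subspace contains a nonsingular vector -/
theorem nonsing_of_large [Finite F] [Module.Finite F V] {Φ : Frm F V} {G : Subgroup (V ≃ₗ[F] V)} {N : ℕ}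
    (h : Kl Φ G N) (R : Submodule F V) (hR : finrank F V < 2 * finrank F R) :
    ∃ ρ ∈ R, N = 1 ∨ Φ.B ρ ρ ≠ 0 ∨ Φ.q ρ ≠ 0 := by
  by_contra hcon
  push Not at hcon
  have h1 : ∀ x ∈ R, ∀ y ∈ R, Φ.B x y = 0 := by
    rcases h with ⟨h, -, rfl⟩ | ⟨r, h, -, rfl⟩ | ⟨Q, h, rfl, -, rfl⟩
    · exact absurd rfl (hcon 0 R.zero_mem).1
    · exact herm_orth h R fun x hx => (hcon x hx).2.1
    · exact quad_orth R fun x hx => (hcon x hx).2.2
  have h2 := Cfsg.Agent.H440.Bs.two_mul_finrank_le Φ h.good.nd h1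
  omega

/-- a large subspace contains a vector which is not isotropic, unless the form is alternating -/
theorem aniso_of_large [Finite F] [Module.Finite F V] {Φ : Frm F V} {G : Subgroup (V ≃ₗ[F] V)} {N : ℕ}
    (h : Kl Φ G N) (hna : ∃ ρ, Φ.B ρ ρ ≠ 0) (R : Submodule F V) (hR : finrank F V < 2 * finrank F R) :
    ∃ ρ ∈ R, Φ.B ρ ρ ≠ 0 := by
  by_contra hcon
  push Not at hcon
  have h1 : ∀ x ∈ R, ∀ y ∈ R, Φ.B x y = 0 := by
    rcases h with ⟨h, -, rfl⟩ | ⟨r, h, -, rfl⟩ | ⟨Q, h, rfl, -, rfl⟩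
    · obtain ⟨ρ, hρ⟩ := hna
      exact absurd (h.alt ρ) hρ
    · exact herm_orth h R hcon
    · refine quad_orth R fun x hx => ?_
      obtain ⟨ρ, hρ⟩ := hna
      have h3 : polar Q x x = 0 := hcon x hx
      rw [polar_self_eq] at h3
      refine (mul_eq_zero.1 h3).resolve_left fun h2 => hρ ?_
      show polar Q ρ ρ = 0
      rw [polar_self_eq, h2, zero_mul]
  have h2 := Cfsg.Agent.H440.Bs.two_mul_finrank_le Φ h.good.nd h1
  omega

/-! ### fibres over sets of vectors of the same norm -/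

/-- `k` maps `E` to a subspace containing `w` -/
theorem cnt1 [Finite F] [Module.Finite F V] {Φ : Frm F V} {G : Subgroup (V ≃ₗ[F] V)} {N : ℕ} (h : Kl Φ G N)
    {D : Submodule F V} (hD : Φ.NdOn D) (hn : 2 * finrank F D + 10 ≤ finrank F V) {E : Submodule F V}
    (hE : Φ.NdOn E) (hED : E ≤ perp Φ D) (hE0 : E ≠ ⊥) {w : V} (hw0 : w ≠ 0) :
    Nat.card {k // k ∈ fixD G D ∧ ∃ w₀ ∈ E, k w₀ = w} * Nat.card (perp Φ D) ≤
      4 * Nat.card E * Nat.card (fixD G D) := by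
  have : Finite V := Module.finite_of_finite F
  have : Finite (V ≃ₗ[F] V) := finite_lin
  have h1 := count_le (fun k : V ≃ₗ[F] V => k ∈ fixD G D ∧ ∃ w₀ ∈ E, k w₀ = w)
    (fun w₀ : V => w₀ ∈ E ∧ Φ.B w₀ w₀ = Φ.B w w ∧ Φ.q w₀ = Φ.q w) (fun w₀ k => k ∈ fixD G D ∧ k w₀ = w)
    (Nat.card (perp Φ D)) (2 * N * Nat.card (fixD G D))
    (by
      rintro k ⟨hk, w₀, hw₀, rfl⟩
      have hi := h.iso hk.1
      exact ⟨w₀, ⟨hw₀, (hi.1 _ _).symm, (hi.2 _).symm⟩, hk, rfl⟩)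
    (by
      rintro w₀ ⟨hw₀, -, -⟩
      by_cases hz : w₀ = 0
      · have : IsEmpty {k // k ∈ fixD G D ∧ k w₀ = w} := by
          refine ⟨?_⟩
          rintro ⟨k, -, hk⟩
          exact hw0 (by rw [← hk, hz, map_zero])
        rw [Nat.card_of_isEmpty, zero_mul]
        exact Nat.zero_le _
      · exact fib1 h hD hn (hED hw₀) hz w)
  have h2 := n1 h E hE hE0 (Φ.B w w) (Φ.q w)
  calc _ ≤ _ := h1
    _ = 2 * (N * Nat.card {w₀ : V // w₀ ∈ E ∧ Φ.B w₀ w₀ = Φ.B w w ∧ Φ.q w₀ = Φ.q w}) * Nat.card (fixD G D) := by ring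
    _ ≤ 2 * (2 * Nat.card E) * Nat.card (fixD G D) := Nat.mul_le_mul_right _ (Nat.mul_le_mul_left _ h2)
    _ = _ := by ring

/-- `k` maps `E` to a subspace containing `w` and `E'` to a subspace containing `v` -/
theorem cnt2 [Finite F] [Module.Finite F V] {Φ : Frm F V} {G : Subgroup (V ≃ₗ[F] V)} {N : ℕ} (h : Kl Φ G N)
    {D : Submodule F V} (hD : Φ.NdOn D) (hn : 2 * finrank F D + 10 ≤ finrank F V) {E E' : Submodule F V}
    (hE : Φ.NdOn E) (hED : E ≤ perp Φ D) (hE0 : E ≠ ⊥) (hE' : Φ.NdOn E') (hED' : E' ≤ perp Φ D) (hE0' : E' ≠ ⊥)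
    (hdj : Disjoint E E') {w v : V} (hw0 : w ≠ 0) (hv0 : v ≠ 0) :
    Nat.card {k // k ∈ fixD G D ∧ (∃ w₀ ∈ E, k w₀ = w) ∧ ∃ v₀ ∈ E', k v₀ = v} * Nat.card (perp Φ D) ^ 2 ≤
      16 * (Nat.card E * Nat.card E') * Nat.card F * Nat.card (fixD G D) := by
  have : Finite V := Module.finite_of_finite F
  have : Finite (V ≃ₗ[F] V) := finite_lin
  let S : V × V → Prop := fun p => (p.1 ∈ E ∧ Φ.B p.1 p.1 = Φ.B w w ∧ Φ.q p.1 = Φ.q w) ∧
    (p.2 ∈ E' ∧ Φ.B p.2 p.2 = Φ.B v v ∧ Φ.q p.2 = Φ.q v)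
  have h1 := count_le (fun k : V ≃ₗ[F] V => k ∈ fixD G D ∧ (∃ w₀ ∈ E, k w₀ = w) ∧ ∃ v₀ ∈ E', k v₀ = v)
    S (fun p k => k ∈ fixD G D ∧ k p.1 = w ∧ k p.2 = v)
    (Nat.card (perp Φ D) ^ 2) (4 * N ^ 2 * Nat.card F * Nat.card (fixD G D))
    (by
      rintro k ⟨hk, ⟨w₀, hw₀, rfl⟩, ⟨v₀, hv₀, rfl⟩⟩
      have hi := h.iso hk.1
      exact ⟨(w₀, v₀), ⟨⟨hw₀, (hi.1 _ _).symm, (hi.2 _).symm⟩, ⟨hv₀, (hi.1 _ _).symm, (hi.2 _).symm⟩⟩, hk, rfl, rfl⟩)
    (by
      rintro ⟨w₀, v₀⟩ ⟨⟨hw₀, -, -⟩, hv₀, -, -⟩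
      by_cases hz : w₀ = 0
      · have : IsEmpty {k // k ∈ fixD G D ∧ k (w₀, v₀).1 = w ∧ k (w₀, v₀).2 = v} := by
          refine ⟨?_⟩
          rintro ⟨k, -, hk, -⟩
          apply hw0
          rw [← hk]
          show k w₀ = 0
          rw [hz, map_zero]
        rw [Nat.card_of_isEmpty, zero_mul]
        exact Nat.zero_le _
      by_cases hz' : v₀ = 0
      · have : IsEmpty {k // k ∈ fixD G D ∧ k (w₀, v₀).1 = w ∧ k (w₀, v₀).2 = v} := by
          refine ⟨?_⟩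
          rintro ⟨k, -, -, hk⟩
          apply hv0
          rw [← hk]
          show k v₀ = 0
          rw [hz', map_zero]
        rw [Nat.card_of_isEmpty, zero_mul]
        exact Nat.zero_le _
      refine fib2 h hD hn (hED hw₀) (hED' hv₀) hz ?_ w v
      intro h0
      have h3 : Submodule.span F {w₀} ≤ E := by
        rw [Submodule.span_le]
        rintro _ rfl
        exact hw₀
      exact hz' ((Submodule.disjoint_def.1 hdj) v₀ (h3 h0) hv₀))
  have h2 := n1 h E hE hE0 (Φ.B w w) (Φ.q w)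
  have h3 := n1 h E' hE' hE0' (Φ.B v v) (Φ.q v)
  have h4 : Nat.card {p : V × V // S p} ≤ Nat.card {w₀ : V // w₀ ∈ E ∧ Φ.B w₀ w₀ = Φ.B w w ∧ Φ.q w₀ = Φ.q w} *
      Nat.card {w₀ : V // w₀ ∈ E' ∧ Φ.B w₀ w₀ = Φ.B v v ∧ Φ.q w₀ = Φ.q v} := by
    rw [← Nat.card_prod]
    refine Nat.card_le_card_of_injective (fun p => (⟨p.1.1, p.2.1⟩, ⟨p.1.2, p.2.2⟩)) ?_
    intro p p' hpp
    rw [Prod.mk.injEq] at hpp
    exact Subtype.ext (Prod.ext (congrArg Subtype.val hpp.1) (congrArg Subtype.val hpp.2))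
  set a := Nat.card {w₀ : V // w₀ ∈ E ∧ Φ.B w₀ w₀ = Φ.B w w ∧ Φ.q w₀ = Φ.q w}
  set b := Nat.card {w₀ : V // w₀ ∈ E' ∧ Φ.B w₀ w₀ = Φ.B v v ∧ Φ.q w₀ = Φ.q v}
  calc _ ≤ _ := h1
    _ ≤ a * b * (4 * N ^ 2 * Nat.card F * Nat.card (fixD G D)) := Nat.mul_le_mul_right _ h4
    _ = 4 * ((N * a) * (N * b)) * Nat.card F * Nat.card (fixD G D) := by ring
    _ ≤ 4 * ((2 * Nat.card E) * (2 * Nat.card E')) * Nat.card F * Nat.card (fixD G D) :=
      Nat.mul_le_mul_right _ (Nat.mul_le_mul_right _ (Nat.mul_le_mul_left _ (Nat.mul_le_mul h2 h3)))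
    _ = _ := by ring

/-! ### the whole group -/

theorem fixD_bot (G : Subgroup (V ≃ₗ[F] V)) : fixD G ⊥ = G := by
  ext g
  rw [mem_fixD]
  refine ⟨fun h => h.1, fun h => ⟨h, fun v hv => ?_⟩⟩
  rw [Submodule.mem_bot] at hv
  rw [hv, map_zero]

theorem perp_bot (Φ : Frm F V) : perp Φ ⊥ = ⊤ := by
  rw [eq_top_iff]
  intro v _ x hx
  rw [Submodule.mem_bot] at hx
  rw [hx]
  exact Cfsg.Agent.H42.Bs.B_zero_right v

theorem card_perp_bot (Φ : Frm F V) : Nat.card (perp Φ ⊥) = Nat.card V := by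
  rw [perp_bot]
  exact Nat.card_congr Submodule.topEquiv.toEquiv

theorem fibG1 [Finite F] [Module.Finite F V] {Φ : Frm F V} {G : Subgroup (V ≃ₗ[F] V)} {N : ℕ} (h : Kl Φ G N)
    (hn : 10 ≤ finrank F V) {w : V} (hw0 : w ≠ 0) (w₁ : V) :
    Nat.card {k // k ∈ G ∧ k w = w₁} * Nat.card V ≤ 2 * N * Nat.card G := by
  have h1 := fib1 h (D := ⊥) Cfsg.Agent.H42.Bs.ndOn_bot (by rw [finrank_bot]; omega) (w := w)
    (by rw [perp_bot]; trivial) hw0 w₁
  rwa [fixD_bot, card_perp_bot] at h1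

theorem fibG2 [Finite F] [Module.Finite F V] {Φ : Frm F V} {G : Subgroup (V ≃ₗ[F] V)} {N : ℕ} (h : Kl Φ G N)
    (hn : 10 ≤ finrank F V) {w v : V} (hw0 : w ≠ 0) (hvw : v ∉ Submodule.span F {w}) (w₁ v₁ : V) :
    Nat.card {k // k ∈ G ∧ k w = w₁ ∧ k v = v₁} * Nat.card V ^ 2 ≤ 4 * N ^ 2 * Nat.card F * Nat.card G := by
  have h1 := fib2 h (D := ⊥) Cfsg.Agent.H42.Bs.ndOn_bot (by rw [finrank_bot]; omega) (w := w) (v := v)
    (by rw [perp_bot]; trivial) (by rw [perp_bot]; trivial) hw0 hvw w₁ v₁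
  rwa [fixD_bot, card_perp_bot] at h1

/-- `x (g a) = g u` with `u ∈ U` not in `⟨a⟩` -/
theorem cntU [Finite F] [Module.Finite F V] {Φ : Frm F V} {G : Subgroup (V ≃ₗ[F] V)} {N : ℕ} (h : Kl Φ G N)
    (hn : 10 ≤ finrank F V) (x : V ≃ₗ[F] V) {a : V} (ha : a ≠ 0) (U : Submodule F V) :
    Nat.card {g // g ∈ G ∧ ∃ u ∈ U, u ∉ Submodule.span F {a} ∧ x (g a) = g u} * Nat.card V ≤
      4 * N ^ 2 * Nat.card U * Nat.card F * Nat.card G := by
  have : Finite V := Module.finite_of_finite F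
  have : Finite (V ≃ₗ[F] V) := finite_lin
  have h1 := count_le (fun g : V ≃ₗ[F] V => g ∈ G ∧ ∃ u ∈ U, u ∉ Submodule.span F {a} ∧ x (g a) = g u)
    (fun p : V × V => p.2 ∈ U ∧ p.2 ∉ Submodule.span F {a}) (fun p g => g ∈ G ∧ g a = p.1 ∧ g p.2 = x p.1)
    (Nat.card V ^ 2) (4 * N ^ 2 * Nat.card F * Nat.card G)
    (by
      rintro g ⟨hg, u, hu, hua, hx⟩
      exact ⟨(g a, u), ⟨hu, hua⟩, hg, rfl, hx.symm⟩)
    (by
      rintro ⟨w, u⟩ ⟨-, hua⟩
      exact fibG2 h hn ha hua w (x w))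
  have h2 : Nat.card {p : V × V // p.2 ∈ U ∧ p.2 ∉ Submodule.span F {a}} ≤ Nat.card V * Nat.card U := by
    rw [← Nat.card_prod]
    refine Nat.card_le_card_of_injective (fun p => (p.1.1, ⟨p.1.2, p.2.1⟩)) ?_
    intro p p' hpp
    rw [Prod.mk.injEq] at hpp
    exact Subtype.ext (Prod.ext hpp.1 (congrArg Subtype.val hpp.2))
  have h0 : 0 < Nat.card V := Nat.card_pos
  refine Nat.le_of_mul_le_mul_left ?_ h0
  calc _ = Nat.card {g // g ∈ G ∧ ∃ u ∈ U, u ∉ Submodule.span F {a} ∧ x (g a) = g u} * Nat.card V ^ 2 := by ring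
    _ ≤ _ := h1
    _ ≤ (Nat.card V * Nat.card U) * (4 * N ^ 2 * Nat.card F * Nat.card G) := Nat.mul_le_mul_right _ h2
    _ = _ := by ring

/-- the eigenspace of `x` -/
def eig (x : V ≃ₗ[F] V) (c : F) : Submodule F V := LinearMap.eqLocus (x : V →ₗ[F] V) (c • LinearMap.id)

theorem mem_eig {x : V ≃ₗ[F] V} {c : F} {v : V} : v ∈ eig x c ↔ x v = c • v := Iff.rfl

theorem eig_disjoint (x : V ≃ₗ[F] V) {c c' : F} (hcc : c ≠ c') : Disjoint (eig x c) (eig x c') := by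
  rw [Submodule.disjoint_def]
  intro v hv hv'
  rw [mem_eig] at hv hv'
  rw [hv, ← sub_eq_zero, ← sub_smul, smul_eq_zero] at hv'
  exact hv'.resolve_left (sub_ne_zero.2 hcc)

theorem eig_large (x : V ≃ₗ[F] V) [Module.Finite F V] {c c' : F} (hc : finrank F V < 2 * finrank F (eig x c))
    (hc' : finrank F V < 2 * finrank F (eig x c')) : c = c' := by
  by_contra hcc
  have h1 := Submodule.finrank_add_finrank_le_of_disjoint (eig_disjoint x hcc)
  omega

theorem cntE [Finite F] [Module.Finite F V] {Φ : Frm F V} {G : Subgroup (V ≃ₗ[F] V)} {N : ℕ} (h : Kl Φ G N)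
    (hn : 10 ≤ finrank F V) (x : V ≃ₗ[F] V) {a : V} (ha : a ≠ 0) (c : F) :
    Nat.card {g // g ∈ G ∧ x (g a) = c • g a} * Nat.card V ≤
      Nat.card {w : V // w ∈ eig x c ∧ Φ.B w w = Φ.B a a ∧ Φ.q w = Φ.q a} * (2 * N * Nat.card G) := by
  have : Finite V := Module.finite_of_finite F
  have : Finite (V ≃ₗ[F] V) := finite_lin
  refine count_le (fun g : V ≃ₗ[F] V => g ∈ G ∧ x (g a) = c • g a)
    (fun w : V => w ∈ eig x c ∧ Φ.B w w = Φ.B a a ∧ Φ.q w = Φ.q a) (fun w g => g ∈ G ∧ g a = w)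
    (Nat.card V) (2 * N * Nat.card G) ?_ ?_
  · rintro g ⟨hg, hx⟩
    have hi := h.iso hg
    exact ⟨g a, ⟨hx, hi.1 _ _, hi.2 _⟩, hg, rfl⟩
  · rintro w -
    exact fibG1 h hn ha w

/-- `g a` is an eigenvector of `x` -/
theorem cntEig [Finite F] [Module.Finite F V] {Φ : Frm F V} {G : Subgroup (V ≃ₗ[F] V)} {N : ℕ} (h : Kl Φ G N)
    (hNq : N ≤ Nat.card F) (hn : 10 ≤ finrank F V) (x : V ≃ₗ[F] V) (hx : ¬ ∃ c : F, ∀ v, x v = c • v) {a : V}
    (ha : a ≠ 0) :
    Nat.card {g // g ∈ G ∧ ∃ c : F, x (g a) = c • g a} * Nat.card F ≤ 6 * Nat.card G := by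
  have : Finite V := Module.finite_of_finite F
  have : Finite (V ≃ₗ[F] V) := finite_lin
  have hq0 : 0 < Nat.card F := Nat.card_pos
  -- small eigenspaces
  have h1 : Nat.card {g // g ∈ G ∧ ∃ c : F, 2 * finrank F (eig x c) ≤ finrank F V ∧ x (g a) = c • g a} * Nat.card F ≤
      2 * Nat.card G := by
    have h2 := count_le
      (fun g : V ≃ₗ[F] V => g ∈ G ∧ ∃ c : F, 2 * finrank F (eig x c) ≤ finrank F V ∧ x (g a) = c • g a)
      (fun c : F => 2 * finrank F (eig x c) ≤ finrank F V) (fun c g => g ∈ G ∧ x (g a) = c • g a)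
      (Nat.card F ^ 2) (2 * Nat.card G)
      (by
        rintro g ⟨hg, c, hc, hxg⟩
        exact ⟨c, hc, hg, hxg⟩)
      (by
        intro c hc
        have h3 := cntE h hn x ha c
        have h4 : Nat.card {w : V // w ∈ eig x c ∧ Φ.B w w = Φ.B a a ∧ Φ.q w = Φ.q a} ≤ Nat.card (eig x c) :=
          card_mono' fun w hw => hw.1
        have h5 : Nat.card (eig x c) * Nat.card F ^ 3 ≤ Nat.card V := by
          rw [card_sub, card_V (F := F) (V := V), ← pow_add]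
          exact Nat.pow_le_pow_right hq0 (by omega)
        have h6 : 0 < Nat.card (eig x c) * Nat.card F := Nat.mul_pos Nat.card_pos hq0
        refine Nat.le_of_mul_le_mul_left ?_ h6
        set M := Nat.card {g // g ∈ G ∧ x (g a) = c • g a}
        calc Nat.card (eig x c) * Nat.card F * (M * Nat.card F ^ 2) = M * (Nat.card (eig x c) * Nat.card F ^ 3) := by ring
          _ ≤ M * Nat.card V := Nat.mul_le_mul_left _ h5
          _ ≤ _ := h3
          _ ≤ Nat.card (eig x c) * (2 * Nat.card F * Nat.card G) :=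
            Nat.mul_le_mul h4 (Nat.mul_le_mul_right _ (Nat.mul_le_mul_left _ hNq))
          _ = _ := by ring)
    have h3 : Nat.card {c : F // 2 * finrank F (eig x c) ≤ finrank F V} ≤ Nat.card F := Finite.card_subtype_le _
    refine Nat.le_of_mul_le_mul_left ?_ hq0
    calc _ = Nat.card {g // g ∈ G ∧ ∃ c : F, 2 * finrank F (eig x c) ≤ finrank F V ∧ x (g a) = c • g a} *
          Nat.card F ^ 2 := by ring
      _ ≤ _ := h2
      _ ≤ _ := Nat.mul_le_mul_right _ h3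
  by_cases hbig : ∃ c, finrank F V < 2 * finrank F (eig x c)
  · obtain ⟨c, hc⟩ := hbig
    have h2 : Nat.card {g // g ∈ G ∧ x (g a) = c • g a} * Nat.card F ≤ 4 * Nat.card G := by
      have h3 := cntE h hn x ha c
      obtain ⟨ρ, hρ, hρ'⟩ := nonsing_of_large h (eig x c) hc
      have h4 := n2q h (eig x c) hρ hρ' 0 (Φ.B a a) (Φ.q a)
      have e1 : Nat.card {w : V // w - 0 ∈ eig x c ∧ Φ.B w w = Φ.B a a ∧ Φ.q w = Φ.q a} =
          Nat.card {w : V // w ∈ eig x c ∧ Φ.B w w = Φ.B a a ∧ Φ.q w = Φ.q a} := by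
        refine Nat.card_congr (Equiv.subtypeEquivRight fun w => ?_)
        rw [sub_zero]
      rw [e1] at h4
      have h5 : Nat.card (eig x c) * Nat.card F ≤ Nat.card V := by
        have h6 : finrank F (eig x c) < finrank F V := by
          apply Submodule.finrank_lt
          intro h7
          apply hx
          refine ⟨c, fun v => ?_⟩
          have h8 : v ∈ eig x c := by rw [h7]; trivial
          exact h8
        rw [card_sub, card_V (F := F) (V := V), ← pow_succ]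
        exact Nat.pow_le_pow_right hq0 h6
      have h6 : 0 < Nat.card (eig x c) := Nat.card_pos
      refine Nat.le_of_mul_le_mul_left ?_ h6
      set M := Nat.card {g // g ∈ G ∧ x (g a) = c • g a}
      set T := Nat.card {w : V // w ∈ eig x c ∧ Φ.B w w = Φ.B a a ∧ Φ.q w = Φ.q a}
      calc Nat.card (eig x c) * (M * Nat.card F) = M * (Nat.card (eig x c) * Nat.card F) := by ring
        _ ≤ M * Nat.card V := Nat.mul_le_mul_left _ h5
        _ ≤ T * (2 * N * Nat.card G) := h3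
        _ = 2 * (N * T) * Nat.card G := by ring
        _ ≤ 2 * (2 * Nat.card (eig x c)) * Nat.card G := Nat.mul_le_mul_right _ (Nat.mul_le_mul_left _ h4)
        _ = _ := by ring
    have h3 := card_or_le (fun g : V ≃ₗ[F] V => g ∈ G ∧ ∃ c : F, x (g a) = c • g a)
      (fun g => g ∈ G ∧ x (g a) = c • g a)
      (fun g => g ∈ G ∧ ∃ c : F, 2 * finrank F (eig x c) ≤ finrank F V ∧ x (g a) = c • g a)
      (by
        rintro g ⟨hg, c', hc'⟩
        by_cases h4 : c' = c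
        · left
          rw [h4] at hc'
          exact ⟨hg, hc'⟩
        · right
          refine ⟨hg, c', ?_, hc'⟩
          by_contra h5
          exact h4 (eig_large x (by omega) hc))
    calc _ ≤ _ := Nat.mul_le_mul_right _ h3
      _ = _ := Nat.add_mul _ _ _
      _ ≤ 4 * Nat.card G + 2 * Nat.card G := Nat.add_le_add h2 h1
      _ = _ := by ring
  · push Not at hbig
    have h2 : Nat.card {g // g ∈ G ∧ ∃ c : F, x (g a) = c • g a} ≤
        Nat.card {g // g ∈ G ∧ ∃ c : F, 2 * finrank F (eig x c) ≤ finrank F V ∧ x (g a) = c • g a} := by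
      refine card_mono' ?_
      rintro g ⟨hg, c, hc⟩
      exact ⟨hg, c, hbig c, hc⟩
    calc _ ≤ _ := Nat.mul_le_mul_right _ h2
      _ ≤ _ := h1
      _ ≤ _ := Nat.mul_le_mul_right _ (by norm_num)

end Cfsg.Agent.H847.Ux
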