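import Cfsg.Agent.H847.Ux.Gp2
import Cfsg.Agent.ClassicalGeometry.TwoFamilies

/-!
# S5716, unbounded rank, UG1 (general position), part 3 (helper847)

The conditions `GPF.disj`, `GPF.nd`: average over the pointwise stabiliser of `D = A + A'`.
-/

set_option autoImplicit false
set_option linter.unusedSectionVars false

namespace Cfsg.Agent.H847.Ux

open Module QuadraticMap Cfsg.Agent.LieClassical.OrthCore Cfsg.Agent.H847.Bs
open Cfsg.Agent.H440.Bs (perp mem_perp mem_perp' perp_disjoint dec_perp)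
open Cfsg.Agent.H42.Bs (B_zero_left B_zero_right B_sub_left B_sub_right B_neg_left B_neg_right)

variable {F V : Type*} [Field F] [AddCommGroup V] [Module F V]

theorem exists_proj [FiniteDimensional F V] {Φ : Frm F V} (hN : Φ.Nd) {E : Submodule F V} (hE : Φ.NdOn E) :
    ∃ π : V →ₗ[F] V, (∀ v, π v ∈ E) ∧ ∀ v, v - π v ∈ perp Φ E := by
  have h1 := dec_perp Φ hN hE
  refine ⟨E.subtype ∘ₗ Cfsg.Agent.H440.Bs.pD h1.compl, fun v => (Cfsg.Agent.H440.Bs.pD h1.compl v).2, fun v => ?_⟩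
  have h2 := Cfsg.Agent.H440.Bs.pD_add_pU h1.compl v
  have h3 : v - (E.subtype ∘ₗ Cfsg.Agent.H440.Bs.pD h1.compl) v = Cfsg.Agent.H440.Bs.pU h1.compl v := by
    rw [sub_eq_iff_eq_add']
    exact h2.symm
  rw [h3]
  exact (Cfsg.Agent.H440.Bs.pU h1.compl v).2

theorem map_perp {Φ : Frm F V} {G : Subgroup (V ≃ₗ[F] V)} {N : ℕ} (h : Kl Φ G N) {D : Submodule F V}
    {k : V ≃ₗ[F] V} (hk : k ∈ fixD G D) {v : V} (hv : v ∈ perp Φ D) : k v ∈ perp Φ D := by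
  intro d hd
  have h1 := (h.iso hk.1).1 v d
  rw [hk.2 d hd] at h1
  rw [h1]
  exact hv d hd

/-! ### the second factor `E' = (D + E)^⊥` -/

theorem perp_sup_le {Φ : Frm F V} {D E : Submodule F V} : perp Φ (D ⊔ E) ≤ perp Φ D :=
  fun _ hv x hx => hv x (Submodule.mem_sup_left hx)

theorem mem_perp_sup {Φ : Frm F V} {D E : Submodule F V} {v : V} (h1 : v ∈ perp Φ D) (h2 : v ∈ perp Φ E) :
    v ∈ perp Φ (D ⊔ E) := by
  intro x hx
  obtain ⟨d, hd, e, he, rfl⟩ := Submodule.mem_sup.1 hx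
  rw [Φ.add_right, h1 d hd, h2 e he, add_zero]

theorem ndOn_sup' {Φ : Frm F V} {D E : Submodule F V} (hD : Φ.NdOn D) (hE : Φ.NdOn E) (hED : E ≤ perp Φ D) :
    Φ.NdOn (D ⊔ E) := by
  intro x hx hx0
  obtain ⟨d, hd, p, hp, rfl⟩ := Submodule.mem_sup.1 hx
  have h1 : d = 0 := by
    apply hD d hd
    intro y hy
    have h2 := hx0 y (Submodule.mem_sup_left hy)
    rw [Φ.add_left, hED hp y hy, add_zero] at h2
    exact h2
  have h3 : p = 0 := by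
    apply hE p hp
    intro y hy
    have h2 := hx0 y (Submodule.mem_sup_right hy)
    rw [h1, zero_add] at h2
    exact h2
  rw [h1, h3, add_zero]

theorem disj_sup {Φ : Frm F V} {D E : Submodule F V} (hE : Φ.NdOn E) : Disjoint E (perp Φ (D ⊔ E)) := by
  rw [Submodule.disjoint_def]
  intro v hv hv'
  exact hE v hv fun y hy => hv' y (Submodule.mem_sup_right hy)

theorem finrank_sup' [FiniteDimensional F V] {Φ : Frm F V} {D E : Submodule F V} (hD : Φ.NdOn D)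
    (hED : E ≤ perp Φ D) : finrank F (D ⊔ E : Submodule F V) = finrank F D + finrank F E := by
  have h1 := Submodule.finrank_sup_add_finrank_inf_eq D E
  have h2 : D ⊓ E = ⊥ := ((perp_disjoint Φ hD).mono_right hED).eq_bot
  rw [h2, finrank_bot, add_zero] at h1
  exact h1

/-! ### the radical -/

/-- the vectors `u ∈ D` with `B (π (T u)) (T u₁) = B u u₁` for all `u₁ ∈ D` -/
def rad (Φ : Frm F V) (D : Submodule F V) (π : V →ₗ[F] V) (T : V ≃ₗ[F] V) : Submodule F V where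
  carrier := {u | u ∈ D ∧ ∀ u₁ ∈ D, Φ.B (π (T u)) (T u₁) = Φ.B u u₁}
  add_mem' := by
    rintro a b ⟨ha, ha'⟩ ⟨hb, hb'⟩
    refine ⟨D.add_mem ha hb, fun u₁ hu₁ => ?_⟩
    rw [map_add, map_add, Φ.add_left, Φ.add_left, ha' u₁ hu₁, hb' u₁ hu₁]
  zero_mem' := by
    refine ⟨D.zero_mem, fun u₁ _ => ?_⟩
    rw [map_zero, map_zero, B_zero_left, B_zero_left]
  smul_mem' := by
    rintro c a ⟨ha, ha'⟩
    refine ⟨D.smul_mem c ha, fun u₁ hu₁ => ?_⟩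
    rw [map_smul, map_smul, Φ.smul_left, Φ.smul_left, ha' u₁ hu₁]

theorem mem_rad {Φ : Frm F V} {D : Submodule F V} {π : V →ₗ[F] V} {T : V ≃ₗ[F] V} {u : V} :
    u ∈ rad Φ D π T ↔ u ∈ D ∧ ∀ u₁ ∈ D, Φ.B (π (T u)) (T u₁) = Φ.B u u₁ := Iff.rfl

theorem card_le_ne [Finite V] (R : Submodule F V) : Nat.card R ≤ Nat.card {u : V // u ∈ R ∧ u ≠ 0} + 1 := by
  have h1 := card_or_le (fun u : V => u ∈ R) (fun u => u ∈ R ∧ u ≠ 0) (fun u => u = 0) (fun u hu => by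
    by_cases h0 : u = 0
    · exact Or.inr h0
    · exact Or.inl ⟨hu, h0⟩)
  have h2 : Nat.card {u : V // u = 0} = 1 := by
    rw [Nat.card_eq_one_iff_unique]
    exact ⟨⟨fun a b => Subtype.ext (a.2.trans b.2.symm)⟩, ⟨⟨0, rfl⟩⟩⟩
  rw [h2] at h1
  exact h1

/-- the orthogonal projection -/
theorem B_proj {Φ : Frm F V} {E : Submodule F V} {π : V →ₗ[F] V} (h1 : ∀ v, π v ∈ E)
    (h2 : ∀ v, v - π v ∈ perp Φ E) (v w : V) : Φ.B (π v) w = Φ.B (π v) (π w) := by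
  have h3 : Φ.B (π v) (w - π w) = 0 := (mem_perp' Φ).1 (h2 w) _ (h1 v)
  rw [B_sub_right] at h3
  exact sub_eq_zero.1 h3

theorem even_rad [FiniteDimensional F V] {Φ : Frm F V} (hs : ∀ a, Φ.s a = a) (halt : ∀ v, Φ.B v v = 0)
    {D E : Submodule F V} (hD : Even (finrank F D)) {π : V →ₗ[F] V} (h1 : ∀ v, π v ∈ E)
    (h2 : ∀ v, v - π v ∈ perp Φ E) (T : V ≃ₗ[F] V) : Even (finrank F (rad Φ D π T)) := by
  let β : LinearMap.BilinForm F D := LinearMap.mk₂ F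
    (fun u u₁ => Φ.B (u : V) (u₁ : V) - Φ.B (π (T (u : V))) (T (u₁ : V)))
    (fun a b c => by
      show Φ.B ((a : V) + b) c - Φ.B (π (T ((a : V) + b))) (T c) = _
      rw [map_add, map_add, Φ.add_left, Φ.add_left]; ring)
    (fun a b c => by
      show Φ.B (a • (b : V)) c - Φ.B (π (T (a • (b : V)))) (T c) = _
      rw [map_smul, map_smul, Φ.smul_left, Φ.smul_left, smul_eq_mul]; ring)
    (fun a b c => by
      show Φ.B (a : V) ((b : V) + c) - Φ.B (π (T (a : V))) (T ((b : V) + c)) = _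
      rw [map_add, Φ.add_right, Φ.add_right]; ring)
    (fun a b c => by
      show Φ.B (b : V) (a • (c : V)) - Φ.B (π (T (b : V))) (T (a • (c : V))) = _
      rw [map_smul, Φ.smul_right, Φ.smul_right, hs, smul_eq_mul]; ring)
  have hβ : β.IsAlt := by
    intro u
    show Φ.B (u : V) (u : V) - Φ.B (π (T (u : V))) (T (u : V)) = 0
    rw [halt, B_proj h1 h2, halt, sub_zero]
  obtain ⟨m, hm⟩ := Cfsg.Agent.ClassicalGeometry.TwoFamilies.exists_finrank_eq_ker_add β hβ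
  have h3 : rad Φ D π T = (LinearMap.ker β).map D.subtype := by
    ext u
    constructor
    · rintro ⟨hu, hu'⟩
      refine ⟨⟨u, hu⟩, ?_, rfl⟩
      show (⟨u, hu⟩ : D) ∈ LinearMap.ker β
      rw [LinearMap.mem_ker]
      ext u₁
      show Φ.B u u₁ - Φ.B (π (T u)) (T u₁) = 0
      rw [hu' u₁ u₁.2, sub_self]
    · rintro ⟨u, hu, rfl⟩
      refine ⟨u.2, fun u₁ hu₁ => ?_⟩
      have h4 : β u ⟨u₁, hu₁⟩ = 0 := by
        have h5 : β u = 0 := hu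
        rw [h5]; rfl
      have h6 : Φ.B (u : V) u₁ - Φ.B (π (T (u : V))) (T u₁) = 0 := h4
      exact (sub_eq_zero.1 h6).symm
  have h4 : finrank F (rad Φ D π T) = finrank F (LinearMap.ker β) := by
    rw [h3]
    exact (Submodule.equivMapOfInjective D.subtype D.subtype_injective (LinearMap.ker β)).finrank_eq.symm
  rw [h4]
  rw [hm] at hD
  have h5 : Even (m + m) := ⟨m, rfl⟩
  exact (Nat.even_add.1 hD).2 h5

/-! ### the pairs `(u, w)` -/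

/-- the pairs `(u, w)` which can occur -/
def SS (Φ : Frm F V) (D : Submodule F V) (y : V ≃ₗ[F] V) (p : V × V) : Prop :=
  p.1 ∈ D ∧ p.2 ∈ perp Φ D ∧ (∀ u₁ ∈ D, Φ.B p.2 (y u₁) = Φ.B p.1 u₁) ∧ Φ.B p.2 p.2 = Φ.B p.1 p.1

theorem SS_alt [Finite V] {Φ : Frm F V} {D : Submodule F V} (hD : Φ.NdOn D) (y : V ≃ₗ[F] V) :
    Nat.card {p // SS Φ D y p} ≤ Nat.card (perp Φ D) := by
  refine Nat.card_le_card_of_injective (fun p => ⟨p.1.2, p.2.2.1⟩) ?_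
  rintro ⟨⟨u, w⟩, hu, hw, h1, hx⟩ ⟨⟨u', w'⟩, hu', hw', h1', hx'⟩ hpp
  have h2 : w = w' := congrArg Subtype.val hpp
  subst h2
  have h3 : u - u' = 0 := by
    apply hD _ (D.sub_mem hu hu')
    intro u₁ hu₁
    have e1 : Φ.B w (y u₁) = Φ.B u u₁ := h1 u₁ hu₁
    have e2 : Φ.B w (y u₁) = Φ.B u' u₁ := h1' u₁ hu₁
    rw [B_sub_left, ← e1, ← e2, sub_self]
  have h4 : u = u' := sub_eq_zero.1 h3
  subst h4
  rfl

theorem SS_fib [Finite F] [Module.Finite F V] {Φ : Frm F V} {G : Subgroup (V ≃ₗ[F] V)} {N : ℕ} (h : Kl Φ G N)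
    (hna : ∃ ρ, Φ.B ρ ρ ≠ 0) {D : Submodule F V} (hn : 4 * finrank F D < finrank F V) (y : V ≃ₗ[F] V) (u : V) :
    N * Nat.card {w : V // (w ∈ perp Φ D ∧ ∀ u₁ ∈ D, Φ.B w (y u₁) = Φ.B u u₁) ∧ Φ.B w w = Φ.B u u} ≤
      2 * Nat.card {w : V // w ∈ perp Φ D ∧ ∀ u₁ ∈ D, Φ.B w (y u₁) = Φ.B u u₁} := by
  have : Finite V := Module.finite_of_finite F
  by_cases h0 : ∃ w₀, w₀ ∈ perp Φ D ∧ ∀ u₁ ∈ D, Φ.B w₀ (y u₁) = Φ.B u u₁
  · obtain ⟨w₀, hw₀, hw₀'⟩ := h0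
    let R : Submodule F V := perp Φ (D ⊔ D.map (y : V →ₗ[F] V))
    have hR : finrank F V < 2 * finrank F R := by
      have h1 := Cfsg.Agent.H440.Bs.finrank_perp Φ h.good.nd (D ⊔ D.map (y : V →ₗ[F] V))
      have h2 := Submodule.finrank_add_le_finrank_add_finrank D (D.map (y : V →ₗ[F] V))
      have h3 : finrank F (D.map (y : V →ₗ[F] V)) ≤ finrank F D := Submodule.finrank_map_le _ _
      show finrank F V < 2 * finrank F (perp Φ (D ⊔ D.map (y : V →ₗ[F] V)))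
      omega
    have hR' : ∀ w, w - w₀ ∈ R ↔ (w ∈ perp Φ D ∧ ∀ u₁ ∈ D, Φ.B w (y u₁) = Φ.B u u₁) := by
      intro w
      constructor
      · intro hw
        have h1 : w - w₀ ∈ perp Φ D := perp_sup_le hw
        refine ⟨?_, fun u₁ hu₁ => ?_⟩
        · have := (perp Φ D).add_mem h1 hw₀
          rwa [sub_add_cancel] at this
        · have h2 : Φ.B (w - w₀) (y u₁) = 0 := hw _ (Submodule.mem_sup_right ⟨u₁, hu₁, rfl⟩)
          rw [B_sub_left, hw₀' u₁ hu₁] at h2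
          exact sub_eq_zero.1 h2
      · rintro ⟨h1, h2⟩
        refine mem_perp_sup ((perp Φ D).sub_mem h1 hw₀) ?_
        rintro _ ⟨u₁, hu₁, rfl⟩
        show Φ.B (w - w₀) (y u₁) = 0
        rw [B_sub_left, hw₀' u₁ hu₁, h2 u₁ hu₁, sub_self]
    have h1 := n2 h R (aniso_of_large h hna R hR) w₀ (Φ.B u u)
    have h2 : Nat.card R = Nat.card {w : V // w ∈ perp Φ D ∧ ∀ u₁ ∈ D, Φ.B w (y u₁) = Φ.B u u₁} := by
      refine Nat.card_congr ((Equiv.subRight w₀).subtypeEquiv fun w => ?_).symm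
      exact (hR' w).symm
    rw [h2] at h1
    refine le_trans (Nat.mul_le_mul_left _ (card_mono' ?_)) h1
    rintro w ⟨hw, hw'⟩
    exact ⟨(hR' w).2 hw, hw'⟩
  · have : IsEmpty {w : V // (w ∈ perp Φ D ∧ ∀ u₁ ∈ D, Φ.B w (y u₁) = Φ.B u u₁) ∧ Φ.B w w = Φ.B u u} :=
      ⟨fun w => h0 ⟨w.1, w.2.1⟩⟩
    rw [Nat.card_of_isEmpty, mul_zero]
    exact Nat.zero_le _

theorem SS_na [Finite F] [Module.Finite F V] {Φ : Frm F V} {G : Subgroup (V ≃ₗ[F] V)} {N : ℕ} (h : Kl Φ G N)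
    (hna : ∃ ρ, Φ.B ρ ρ ≠ 0) {D : Submodule F V} (hD : Φ.NdOn D) (hn : 4 * finrank F D < finrank F V)
    (y : V ≃ₗ[F] V) : N * Nat.card {p // SS Φ D y p} ≤ 2 * Nat.card (perp Φ D) := by
  classical
  have : Finite V := Module.finite_of_finite F
  have := Fintype.ofFinite D
  have h1 : Nat.card {p // SS Φ D y p} ≤
      Nat.card (Σ u : D, {w : V // (w ∈ perp Φ D ∧ ∀ u₁ ∈ D, Φ.B w (y u₁) = Φ.B (u : V) u₁) ∧ Φ.B w w = Φ.B (u : V) u}) := by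
    refine Nat.card_le_card_of_injective (fun p => ⟨⟨p.1.1, p.2.1⟩, ⟨p.1.2, ⟨p.2.2.1, p.2.2.2.1⟩, p.2.2.2.2⟩⟩) ?_
    rintro ⟨⟨u, w⟩, hp⟩ ⟨⟨u', w'⟩, hp'⟩ hpp
    have h2 : u = u' := congrArg (fun s : (Σ u : D, {w : V // (w ∈ perp Φ D ∧ ∀ u₁ ∈ D, Φ.B w (y u₁) = Φ.B (u : V) u₁) ∧
      Φ.B w w = Φ.B (u : V) u}) => (s.1 : V)) hpp
    have h3 : w = w' := congrArg (fun s : (Σ u : D, {w : V // (w ∈ perp Φ D ∧ ∀ u₁ ∈ D, Φ.B w (y u₁) = Φ.B (u : V) u₁) ∧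
      Φ.B w w = Φ.B (u : V) u}) => (s.2 : V)) hpp
    subst h2 h3
    rfl
  have h2 : Nat.card (Σ u : D, {w : V // w ∈ perp Φ D ∧ ∀ u₁ ∈ D, Φ.B w (y u₁) = Φ.B (u : V) u₁}) ≤
      Nat.card (perp Φ D) := by
    refine Nat.card_le_card_of_injective (fun s => ⟨s.2.1, s.2.2.1⟩) ?_
    rintro ⟨⟨u, hu⟩, ⟨w, hw, h1⟩⟩ ⟨⟨u', hu'⟩, ⟨w', hw', h1'⟩⟩ hpp
    have h2 : w = w' := congrArg Subtype.val hpp
    subst h2
    have h3 : u - u' = 0 := by
      apply hD _ (D.sub_mem hu hu')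
      intro u₁ hu₁
      have e1 : Φ.B w (y u₁) = Φ.B u u₁ := h1 u₁ hu₁
      have e2 : Φ.B w (y u₁) = Φ.B u' u₁ := h1' u₁ hu₁
      rw [B_sub_left, ← e1, ← e2, sub_self]
    have h4 : u = u' := sub_eq_zero.1 h3
    subst h4
    rfl
  rw [Nat.card_sigma] at h1 h2
  calc _ ≤ N * _ := Nat.mul_le_mul_left _ h1
    _ ≤ 2 * _ := by
      rw [Finset.mul_sum, Finset.mul_sum]
      exact Finset.sum_le_sum fun u _ => SS_fib h hna hn y u
    _ ≤ _ := Nat.mul_le_mul_left _ h2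

end Cfsg.Agent.H847.Ux
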